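import Cfsg.Agent.H773.Pw.Spor
import Cfsg.Agent.H604.Cop.Conway
import Cfsg.Agent.H444.CoThirteen
import Cfsg.Agent.H847.Co1Small

/-!
# S2454, row `Co1` (helper24)

The element of order 23 of `M24` is a product of two elements of `p`-power order for `p = 2, 3, 5, 7, 11`; the degrees
of the nontrivial representations of `Co1` are at least 276 (helper847).
-/

set_option autoImplicit false

namespace Cfsg.Agent.H24.Pw.Co1

open Cfsg Cfsg.Spor Cfsg.Agent.H514.DP Cfsg.Agent.H773.Pw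
open Cfsg.Agent.SporadicA.GolayBase Cfsg.Agent.SporadicStructure.TabPerm
open Cfsg.Agent.CpAutBig.Tab
open Cfsg.Agent.SporadicA.Co0Mono (permCo0)
open Cfsg.Agent.H604.Cop.Conway (pi23 pi23_mem F23 idx_pi23 r23 s23)

universe u

/-- the 23-cycle -/
def y24 : M24 := ⟨pi23, pi23_mem⟩

theorem tab_isPE {p k : ℕ} {A A' : List ℕ} (hA : chk A A' = true) (hAM : chkM A = true)
    (h1 : ∀ i < 24, (fun j => A.getD j 0)^[p ^ k] i = i) :
    IsPE p (⟨tabPerm A A' hA, tabPerm_mem_M24 _ _ _ hAM⟩ : M24) := by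
  refine ⟨k, Subtype.ext ?_⟩
  show (tabPerm A A' hA) ^ p ^ k = 1
  ext1 x
  apply idx_injective
  rw [show idx ((tabPerm A A' hA ^ p ^ k : Equiv.Perm GolayPt) x) = (fun j => A.getD j 0)^[p ^ k] (idx x) from
    idx_iter hA (p ^ k) x, h1 _ (idx_lt x)]
  rfl

theorem pe_two {p k : ℕ} {A A' B B' : List ℕ} (hA : chk A A' = true) (hB : chk B B' = true) (hAM : chkM A = true)
    (hBM : chkM B = true) (h1 : ∀ i < 24, (fun j => A.getD j 0)^[p ^ k] i = i)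
    (h2 : ∀ i < 24, (fun j => B.getD j 0)^[p ^ k] i = i) (h3 : ∀ i < 24, A.getD (B.getD i 0) 0 = F23.getD i 0) :
    PE p 2 y24 := by
  have h4 : (⟨tabPerm A A' hA, tabPerm_mem_M24 _ _ _ hAM⟩ : M24) * ⟨tabPerm B B' hB, tabPerm_mem_M24 _ _ _ hBM⟩ =
      y24 := by
    apply Subtype.ext
    show tabPerm A A' hA * tabPerm B B' hB = pi23
    ext1 x
    apply idx_injective
    show idx (tabPerm A A' hA (tabPerm B B' hB x)) = idx (pi23 x)
    rw [idx_tab hA, idx_tab hB, idx_pi23, h3 _ (idx_lt x)]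
  have h5 := (tab_isPE hA hAM h1).pe.mul (tab_isPE hB hBM h2).pe
  rwa [h4] at h5

theorem pe_2 : PE 2 2 y24 :=
  pe_two (p := 2) (k := 2) (A := [9, 15, 5, 4, 3, 23, 12, 8, 11, 0, 16, 21, 18, 14, 13, 1, 20, 2, 19, 6, 22, 7, 10, 17])
    (A' := [9, 15, 17, 4, 3, 2, 19, 21, 7, 0, 22, 8, 6, 14, 13, 1, 10, 23, 12, 18, 16, 11, 20, 5])
    (B := [15, 17, 4, 3, 2, 19, 21, 7, 0, 22, 8, 6, 14, 13, 1, 10, 23, 12, 18, 16, 11, 20, 9, 5])
    (B' := [8, 14, 4, 3, 2, 23, 11, 7, 10, 22, 15, 20, 17, 13, 12, 0, 19, 1, 18, 5, 21, 6, 9, 16])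
    (by decide +kernel) (by decide +kernel) (by decide +kernel) (by decide +kernel) (by decide +kernel)
    (by decide +kernel) (by decide +kernel)

theorem pe_3 : PE 3 2 y24 :=
  pe_two (p := 3) (k := 1) (A := [23, 14, 15, 19, 5, 6, 4, 17, 11, 2, 16, 12, 8, 10, 21, 9, 13, 18, 7, 20, 3, 1, 0, 22])
    (A' := [22, 21, 9, 20, 6, 4, 5, 18, 12, 15, 13, 8, 11, 16, 1, 2, 10, 7, 17, 3, 19, 14, 23, 0])
    (B := [21, 9, 20, 6, 4, 5, 18, 12, 15, 13, 8, 11, 16, 1, 2, 10, 7, 17, 3, 19, 14, 23, 22, 0])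
    (B' := [23, 13, 14, 18, 4, 5, 3, 16, 10, 1, 15, 11, 7, 9, 20, 8, 12, 17, 6, 19, 2, 0, 22, 21])
    (by decide +kernel) (by decide +kernel) (by decide +kernel) (by decide +kernel) (by decide +kernel)
    (by decide +kernel) (by decide +kernel)

theorem pe_5 : PE 5 2 y24 :=
  pe_two (p := 5) (k := 1) (A := [1, 8, 17, 9, 2, 4, 15, 7, 18, 23, 0, 11, 13, 6, 5, 16, 12, 14, 10, 19, 20, 22, 3, 21])
    (A' := [10, 0, 4, 22, 5, 14, 13, 7, 1, 3, 18, 11, 16, 12, 17, 6, 15, 2, 8, 19, 20, 23, 21, 9])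
    (B := [0, 4, 22, 5, 14, 13, 7, 1, 3, 18, 11, 16, 12, 17, 6, 15, 2, 8, 19, 20, 23, 21, 10, 9])
    (B' := [0, 7, 16, 8, 1, 3, 14, 6, 17, 23, 22, 10, 12, 5, 4, 15, 11, 13, 9, 18, 19, 21, 2, 20])
    (by decide +kernel) (by decide +kernel) (by decide +kernel) (by decide +kernel) (by decide +kernel)
    (by decide +kernel) (by decide +kernel)

theorem pe_7 : PE 7 2 y24 :=
  pe_two (p := 7) (k := 1) (A := [1, 12, 3, 23, 0, 4, 6, 15, 18, 7, 21, 5, 22, 13, 14, 20, 17, 8, 2, 10, 19, 9, 11, 16])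
    (A' := [4, 0, 18, 2, 5, 11, 6, 9, 17, 21, 19, 22, 1, 13, 14, 7, 23, 16, 8, 20, 15, 10, 12, 3])
    (B := [0, 18, 2, 5, 11, 6, 9, 17, 21, 19, 22, 1, 13, 14, 7, 23, 16, 8, 20, 15, 10, 12, 4, 3])
    (B' := [0, 11, 2, 23, 22, 3, 5, 14, 17, 6, 20, 4, 21, 12, 13, 19, 16, 7, 1, 9, 18, 8, 10, 15])
    (by decide +kernel) (by decide +kernel) (by decide +kernel) (by decide +kernel) (by decide +kernel)
    (by decide +kernel) (by decide +kernel)

theorem pe_11 : PE 11 2 y24 :=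
  pe_two (p := 11) (k := 1) (A := [6, 2, 10, 14, 18, 22, 17, 7, 16, 5, 4, 13, 19, 21, 1, 11, 20, 12, 15, 9, 0, 3, 8, 23])
    (A' := [20, 14, 1, 21, 10, 9, 0, 7, 22, 19, 2, 15, 17, 11, 3, 18, 8, 6, 4, 12, 16, 13, 5, 23])
    (B := [14, 1, 21, 10, 9, 0, 7, 22, 19, 2, 15, 17, 11, 3, 18, 8, 6, 4, 12, 16, 13, 5, 20, 23])
    (B' := [5, 1, 9, 13, 17, 21, 16, 6, 15, 4, 3, 12, 18, 20, 0, 10, 19, 11, 14, 8, 22, 2, 7, 23])
    (by decide +kernel) (by decide +kernel) (by decide +kernel) (by decide +kernel) (by decide +kernel)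
    (by decide +kernel) (by decide +kernel)

theorem s23_eq : s23 = ((QuotientGroup.mk' (Subgroup.center Co0)).comp permCo0) y24 := rfl

theorem pe_s23 {p : ℕ} (h : PE p 2 y24) : PE p 2 s23 := by
  rw [s23_eq]
  exact h.map _

theorem minDeg : MinDeg Spor.Co1 276 := by
  intro k ρ hρ hk
  by_contra hlt
  obtain ⟨g, hg⟩ := Cfsg.Agent.H121.Chr.exists_ne_one ρ hρ hk
  exact hg (Cfsg.Agent.H847.Co1Small.trivial_of_lt ρ (by rw [Module.finrank_fin_fun]; omega) g)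

theorem prime_cases {p : ℕ} (hp : p.Prime) (hd : p ∣ 4157776806543360000) :
    p = 2 ∨ p = 3 ∨ p = 5 ∨ p = 7 ∨ p = 11 ∨ p = 13 ∨ p = 23 := by
  have h : (4157776806543360000 : ℕ) = 2 ^ 21 * 3 ^ 9 * 5 ^ 4 * 7 ^ 2 * 11 * 13 * 23 := by norm_num
  rw [h] at hd
  have h2 := Nat.prime_two
  have h3 := Nat.prime_three
  have h5 := Nat.prime_five
  have h7 : Nat.Prime 7 := by norm_num
  have h11 : Nat.Prime 11 := by norm_num
  have h13 : Nat.Prime 13 := by norm_num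
  have h23 : Nat.Prime 23 := by norm_num
  rw [hp.dvd_mul, hp.dvd_mul, hp.dvd_mul, hp.dvd_mul, hp.dvd_mul, hp.dvd_mul] at hd
  rcases hd with (((((hd | hd) | hd) | hd) | hd) | hd) | hd
  · exact Or.inl ((Nat.prime_dvd_prime_iff_eq hp h2).1 (hp.dvd_of_dvd_pow hd))
  · exact Or.inr (Or.inl ((Nat.prime_dvd_prime_iff_eq hp h3).1 (hp.dvd_of_dvd_pow hd)))
  · exact Or.inr (Or.inr (Or.inl ((Nat.prime_dvd_prime_iff_eq hp h5).1 (hp.dvd_of_dvd_pow hd))))
  · exact Or.inr (Or.inr (Or.inr (Or.inl ((Nat.prime_dvd_prime_iff_eq hp h7).1 (hp.dvd_of_dvd_pow hd)))))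
  · exact Or.inr (Or.inr (Or.inr (Or.inr (Or.inl ((Nat.prime_dvd_prime_iff_eq hp h11).1 hd)))))
  · exact Or.inr (Or.inr (Or.inr (Or.inr (Or.inr (Or.inl ((Nat.prime_dvd_prime_iff_eq hp h13).1 hd))))))
  · exact Or.inr (Or.inr (Or.inr (Or.inr (Or.inr (Or.inr ((Nat.prime_dvd_prime_iff_eq hp h23).1 hd))))))

theorem pw_model {p : ℕ} (hp : p.Prime) (hd : p ∣ Nat.card Spor.Co1) : PW p 70 Spor.Co1 := by
  have hfin : Finite Spor.Co1 := BpSpor.MBigCo.finite_co1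
  have hs : IsSimpleGroup Spor.Co1 := Cfsg.Agent.S0399.result.1
  have hcard : Nat.card Spor.Co1 = 4157776806543360000 := BpSpor.MBigCo.card_co1
  have hna : ¬ ∀ a b : Spor.Co1, a * b = b * a :=
    H253.TC.not_comm_of_card (p := 23) hcard (by norm_num) (by norm_num) (by norm_num) (by norm_num)
  have key : PE p 2 y24 → PW p 70 Spor.Co1 := fun h =>
    pw_of_pe hna (k := 3) (pe_s23 h) minDeg Cfsg.Agent.H604.Cop.Conway.card_cent_s23 (by norm_num) (by norm_num)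
      (by norm_num)
  rw [hcard] at hd
  rcases prime_cases hp hd with rfl | rfl | rfl | rfl | rfl | rfl | rfl
  · exact key pe_2
  · exact key pe_3
  · exact key pe_5
  · exact key pe_7
  · exact key pe_11
  · refine pw_of_order hna (l := 13) (k := 7) (c := 1872) (by norm_num) (by rw [hcard]; norm_num) minDeg ?_
      (by norm_num) (by norm_num) (by norm_num)
    intro y hy
    have h1 := Nat.le_of_dvd (by norm_num) (Cfsg.Agent.H444.CoThirteen.dvd_cent hy)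
    exact h1.trans (by norm_num)
  · exact pw_of_pe hna (m := 1) (k := 3) (y := s23)
      (IsPE.of_prime Cfsg.Agent.H604.Cop.Conway.orderOf_s23).pe minDeg
      Cfsg.Agent.H604.Cop.Conway.card_cent_s23 (by norm_num) (by norm_num) (by norm_num)

/-- **Row `Co1` of S2454.** -/
theorem pw_co1 {S : Type*} [Group S] [Finite S] [IsSimpleGroup S] (h : Spor.IsoCo1 S) {p : ℕ} (hp : p.Prime)
    (hd : p ∣ Nat.card S) : PW p 70 S := by
  obtain ⟨e⟩ := h
  rw [Nat.card_congr e.toEquiv] at hd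
  exact (pw_model hp hd).congr e.symm

end Cfsg.Agent.H24.Pw.Co1
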